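import Cfsg.Agent.Invol.Basic
import Mathlib.Data.Set.Finite.Lemmas

/-! Lemma D of the sporadic recognitions: a subgroup `M ≥ N(V)` (`V` elementary abelian, weakly closed in `N(V)`)
containing the centralisers of one class of involutions of `V` contains those of all (`lemD`), and is then the whole
group when it has two unfused classes (`eq_top_of_unfused`). -/

set_option autoImplicit false

namespace Cfsg.Agent.SporD
open Subgroup Cfsg.Agent.Invol

variable {G : Type*} [Group G] [Finite G]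

/-- a strongly closed TI four-group-free situation: `D` is transitive on `V#`. -/
theorem trans_of_sc {V D : Subgroup G} (hV : ∀ v ∈ V, v * v = 1) (hVD : V ≤ D) (hD : D ≤ normalizer (V : Set G))
    (sc : ∀ c, ∀ v ∈ V, v ≠ 1 → c * v * c⁻¹ ∈ D → c ∈ D) (hne : D ≠ ⊤) (h1 : V ≠ ⊥) :
    Nat.card V - 1 ∣ Nat.card D := by
  obtain ⟨⟨v, hv⟩, v1⟩ := ne_bot_iff_exists_ne_one.1 h1
  replace v1 : v ≠ 1 := fun e => v1 (Subtype.ext e)
  obtain ⟨c, hc⟩ : ∃ c, c ∉ D := by by_contra! h; exact hne (eq_top_iff.2 fun x _ => h x)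
  have hu : c * v * c⁻¹ * (c * v * c⁻¹) = 1 := by
    rw [show c * v * c⁻¹ * (c * v * c⁻¹) = c * (v * v) * c⁻¹ by group, hV v hv]; group
  have sc' : ∀ x ∈ V, x ≠ 1 → ∀ y ∈ D, IsConj x y → y ∈ V := fun x hx x1 y hy e => by
    obtain ⟨d, rfl⟩ := isConj_iff.1 e
    exact (mem_normalizer_iff.1 (hD (sc d x hx x1 hy)) x).1 hx
  have key : ∀ w ∈ V, w ≠ 1 → IsConj w (c * v * c⁻¹) := fun w hw w1 => by
    by_contra h
    obtain ⟨k, o, c1, c2⟩ := exists_commute_of_not_isConj (hV w hw) hu h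
    have t1 : (w * (c * v * c⁻¹)) ^ k ∈ D := sc _ w hw w1 (by rw [c1.eq, mul_inv_cancel_right]; exact hVD hw)
    have t2 : w * (w * (c * v * c⁻¹)) ^ k ∈ V := by
      rcases Nat.even_or_odd k with e | e
      · exact sc' w hw w1 _ (mul_mem (hVD hw) t1) (isConj_left_of_even (hV w hw) hu e)
      · exact sc' v hv v1 _ (mul_mem (hVD hw) t1)
          ((isConj_iff.2 ⟨c, rfl⟩).trans (isConj_right_of_odd (hV w hw) hu e))
    generalize (w * (c * v * c⁻¹)) ^ k = t at *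
    refine hc (inv_mem_iff.1 (sc _ t ((mul_mem_cancel_left hw).1 t2) (ne_one_of o) (sc _ v hv v1 ?_)))
    rw [show c⁻¹ * t * c⁻¹⁻¹ * v * (c⁻¹ * t * c⁻¹⁻¹)⁻¹ = c⁻¹ * (t * (c * v * c⁻¹)) * t⁻¹ * c by group, c2.eq]
    simpa [mul_assoc] using hVD hv
  have e : D.subtype '' {y : D | IsConj ⟨v, hVD hv⟩ y} = (V : Set G) \ {1} := by
    ext y
    constructor
    · rintro ⟨y, hy, rfl⟩
      have := D.subtype.map_isConj hy
      exact ⟨sc' v hv v1 _ y.2 this, fun e => v1 (isConj_one_left.1 ((show D.subtype y = 1 from e) ▸ this))⟩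
    · rintro ⟨hy, y1⟩
      obtain ⟨d, e⟩ := isConj_iff.1 ((key v hv v1).trans (key y hy y1).symm)
      exact ⟨⟨y, hVD hy⟩, isConj_iff.2 ⟨⟨d, sc d v hv v1 (e ▸ hVD hy)⟩, Subtype.ext e⟩, rfl⟩
  have e2 := congrArg Set.ncard e
  rw [Set.ncard_image_of_injective _ D.subtype_injective, Set.ncard_sdiff_singleton_of_mem V.one_mem] at e2
  rw [show Nat.card V = (V : Set G).ncard from rfl, ← e2]
  exact Dvd.intro _ (card_class_mul_card_centralizer (⟨v, hVD hv⟩ : D))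

/-- an involution normalising an elementary abelian `V` centralises at least `√|V|` elements. -/
theorem exists_cent {V : Subgroup G} (hV : ∀ v ∈ V, v * v = 1) {u : G} (hu : u * u = 1)
    (hn : u ∈ normalizer (V : Set G)) : ∃ A ≤ V, (∀ x ∈ A, Commute x u) ∧ Nat.card V ≤ Nat.card A * Nat.card A := by
  have cm : ∀ a ∈ V, ∀ b ∈ V, Commute a b := fun a ha b hb =>
    commute_of_mul_sq (hV a ha) (hV b hb) (hV _ (mul_mem ha hb))
  have m : ∀ x : V, u * x * u⁻¹ ∈ V := fun x => (mem_normalizer_iff.1 hn x).1 x.2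
  let φ : V →* G := MonoidHom.mk' (fun x => u * x * u⁻¹ * x) fun a b => by
    have := (cm _ (m b) _ a.2).eq
    simp only [coe_mul]
    calc _ = u * a * u⁻¹ * (u * b * u⁻¹ * a) * b := by group
      _ = _ := by rw [this]; group
  have e : ∀ x : V, φ x = u * x * u⁻¹ * x := fun _ => rfl
  have hA : φ.range ≤ φ.ker.map V.subtype := by
    rintro _ ⟨x, rfl⟩
    refine ⟨⟨_, mul_mem (m x) x.2⟩, ?_, rfl⟩
    have h1 : u * (u * x * u⁻¹ * x) * u⁻¹ = x * (u * x * u⁻¹) := by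
      rw [show u * (u * x * u⁻¹ * x) * u⁻¹ = u * u * x * (u * u)⁻¹ * (u * x * u⁻¹) by group, hu]; group
    show u * (u * x * u⁻¹ * x) * u⁻¹ * (u * x * u⁻¹ * x) = 1
    rw [h1, ← (cm _ (m x) _ x.2).eq]; exact hV _ (mul_mem (m x) x.2)
  refine ⟨φ.ker.map V.subtype, map_subtype_le _, ?_, ?_⟩
  · rintro _ ⟨x, hx, rfl⟩
    have : u * x * u⁻¹ = x := by
      rw [eq_inv_of_mul_eq_one_left (show u * x * u⁻¹ * x = 1 from hx), inv_eq_of_mul_self (hV _ x.2)]
    exact (mul_inv_eq_iff_eq_mul.1 this).symm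
  · have := card_le_of_le hA
    rw [card_map_of_injective V.subtype_injective] at this ⊢
    rw [← φ.ker.card_mul_index, index_ker]
    exact Nat.mul_le_mul_left _ this

theorem lemD {M V : Subgroup G} (Z : Set G) {a : ℕ} (hV : ∀ v ∈ V, v * v = 1) (hN : normalizer (V : Set G) ≤ M)
    (h1 : ∀ z ∈ Z, z ∈ V → ∀ g, g * z * g⁻¹ ∈ M → g ∈ M)
    (h2 : ∀ g, (∀ v ∈ V, g * v * g⁻¹ ∈ normalizer (V : Set G)) → g ∈ normalizer (V : Set G))
    (h3 : ∀ v ∈ V, v ≠ 1 → v ∉ Z → ∀ g ∈ M, Commute g v → g ∈ normalizer (V : Set G))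
    (h4 : ∀ W ≤ V, (∀ w ∈ W, w ∉ Z) → Nat.card W ≤ a) (ha : a * a < Nat.card V)
    (h5 : ∀ k m, 1 < k → k ≤ a → k * m = Nat.card V → ¬ m - 1 ∣ Nat.card (normalizer (V : Set G)))
    {v : G} (hv : v ∈ V) (v1 : v ≠ 1) : centralizer {v} ≤ M := by
  by_contra hc
  have cm : ∀ a ∈ V, ∀ b ∈ V, Commute a b := fun a ha b hb =>
    commute_of_mul_sq (hV a ha) (hV b hb) (hV _ (mul_mem ha hb))
  have VM : V ≤ M := le_normalizer.trans hN
  obtain ⟨W, ⟨WV, W1, WM⟩, mx⟩ := Set.exists_max_image {W : Subgroup G | W ≤ V ∧ W ≠ ⊥ ∧ ¬ centralizer (W : Set G) ≤ M}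
    (fun W => Nat.card W) (Set.toFinite _) ⟨zpowers v, zpowers_le.2 hv, zpowers_ne_bot.2 v1, by
      rwa [zpowers_eq_closure, centralizer_closure]⟩
  have WZ : ∀ w ∈ W, w ∉ Z := fun w hw hz => WM fun g hg => h1 w hz (WV hw) g (by
    rw [← hg w hw, mul_inv_cancel_right]; exact VM (WV hw))
  obtain ⟨⟨w, hw⟩, w1⟩ := ne_bot_iff_exists_ne_one.1 W1
  set C := centralizer (W : Set G)
  set N := normalizer (V : Set G)
  have CN : ∀ g ∈ C, g ∈ M → g ∈ N := fun g hg gM =>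
    h3 w (WV hw) (fun e => w1 (Subtype.ext e)) (WZ w hw) g gM (hg w hw).symm
  have VC : V ≤ C := fun x hx y hy => cm y (WV hy) x hx
  have ti : ∀ c ∈ C, ∀ x ∈ V, x ∉ W → c * x * c⁻¹ ∈ V → c ∈ N := fun c hc x hx xW h => inv_mem_iff.1 (h2 _ fun y hy => by
    have hy' : c⁻¹ * y * c⁻¹⁻¹ ∈ C := mul_mem (mul_mem (inv_mem hc) (VC hy)) (inv_mem (inv_mem hc))
    refine CN _ hy' ?_
    by_contra hM
    have := mx (W ⊔ zpowers x) ⟨sup_le WV (zpowers_le.2 hx), fun e => W1 (le_bot_iff.1 (e ▸ le_sup_left)), fun e => hM (e ?_)⟩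
    · exact xW ((eq_of_le_of_card_ge le_sup_left this).symm ▸ mem_sup_right (mem_zpowers x))
    · refine le_centralizer_iff.1 (sup_le (le_centralizer_iff.1 (zpowers_le.2 hy')) (zpowers_le.2 ?_)) (mem_zpowers _)
      rw [zpowers_eq_closure, centralizer_closure, mem_centralizer_singleton_iff]
      calc _ = c⁻¹ * (c * x * c⁻¹ * y) * c := by group
        _ = _ := by rw [(cm _ h y hy).eq]; group)
  have sc : ∀ c ∈ C, ∀ x ∈ V, x ∉ W → c * x * c⁻¹ ∈ N → c ∈ N := fun c hc x hx xW h => by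
    obtain ⟨A, AV, h6, h7⟩ := exists_cent hV (u := c * x * c⁻¹) (by
      rw [show c * x * c⁻¹ * (c * x * c⁻¹) = c * (x * x) * c⁻¹ by group, hV x hx]; group) h
    obtain ⟨z, hz, zZ⟩ : ∃ z ∈ A, z ∈ Z := by
      by_contra! h; have := h4 A AV h; have := Nat.mul_le_mul this this; omega
    refine CN c hc (inv_mem_iff.1 (h1 z zZ (AV hz) _ (hN (ti _ (mul_mem (mul_mem (inv_mem hc) (VC (AV hz)))
      (inv_mem (inv_mem hc))) x hx xW ?_))))
    rw [show c⁻¹ * z * c⁻¹⁻¹ * x * (c⁻¹ * z * c⁻¹⁻¹)⁻¹ = c⁻¹ * (z * (c * x * c⁻¹)) * z⁻¹ * c by group, (h6 z hz).eq]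
    simpa [mul_assoc] using hx
  have : (W.subgroupOf C).Normal := ⟨fun n hn g => by
    show g.1 * n * g.1⁻¹ ∈ W
    rw [← g.2 n hn, mul_inv_cancel_right]; exact hn⟩
  let π := QuotientGroup.mk' (W.subgroupOf C)
  have kπ : ∀ g, π g = 1 ↔ g.1 ∈ W := fun g => QuotientGroup.eq_one_iff g
  have mN : ∀ g, π g ∈ (N.subgroupOf C).map π → g.1 ∈ N := by
    rintro g ⟨n, hn, e⟩
    have : n.1⁻¹ * g.1 ∈ W := (kπ (n⁻¹ * g)).1 (by rw [map_mul, map_inv, e, inv_mul_cancel])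
    exact (mul_mem_cancel_left (inv_mem (show n.1 ∈ N from hn))).1 (le_normalizer (WV this))
  have c1 : Nat.card W * Nat.card ((V.subgroupOf C).map π) = Nat.card V := by
    have e : (π.comp (inclusion VC)).range = (V.subgroupOf C).map π := by
      rw [MonoidHom.range_comp, inclusion_range]
    have e' : (π.comp (inclusion VC)).ker = W.subgroupOf V := by ext g; exact kπ _
    rw [← e, ← index_ker, e', ← Nat.card_congr (subgroupOfEquivOfLe WV).toEquiv, card_mul_index]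
  have l := h4 W WV WZ
  refine h5 _ _ ((one_lt_card_iff_ne_bot W).2 W1) l c1 ((trans_of_sc (D := (N.subgroupOf C).map π) ?_
    (map_mono (comap_mono le_normalizer)) ?_ ?_ ?_ ?_).trans ((card_map_dvd _ _).trans (card_comap_dvd_of_injective _ _
      C.subtype_injective)))
  · rintro _ ⟨x, hx, rfl⟩
    rw [← map_mul, kπ, coe_mul, hV x.1 hx]; exact one_mem _
  · rintro _ ⟨n, hn, rfl⟩
    refine mem_normalizer_fintype ?_
    rintro _ ⟨x, hx, rfl⟩
    exact ⟨n * x * n⁻¹, (mem_normalizer_iff.1 hn x.1).1 hx, by simp⟩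
  · rintro c _ ⟨x, hx, rfl⟩ x1 h
    obtain ⟨c, rfl⟩ := QuotientGroup.mk'_surjective _ c
    exact ⟨c, sc c c.2 x hx (fun e => x1 ((kπ x).2 e)) (mN (c * x * c⁻¹) (by rw [map_mul, map_mul, map_inv]; exact h)), rfl⟩
  · exact fun e => WM fun g hg => hN (mN ⟨g, hg⟩ (e ▸ mem_top _))
  · intro e
    rw [show (V.subgroupOf C).map π = ⊥ from e, card_bot, mul_one] at c1
    have := Nat.mul_le_mul_left a (show 1 ≤ a from (Nat.card_pos (α := W)).trans_le l)
    omega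

/-- a subgroup controlling the conjugates of all its involutions and holding two unfused ones is the whole group. -/
theorem eq_top_of_unfused {M : Subgroup G} (h : ∀ s ∈ M, orderOf s = 2 → ∀ g, g * s * g⁻¹ ∈ M → g ∈ M) {z t : G}
    (hz : z ∈ M) (ht : t ∈ M) (oz : orderOf z = 2) (ot : orderOf t = 2) (hn : ¬ IsConj z t) : M = ⊤ :=
  eq_top_iff.2 fun g _ => by
    obtain ⟨k, o, c1, c2⟩ := exists_commute_of_not_isConj (mul_self_of oz) (mul_self_of ((orderOf_conj' g t).trans ot))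
      fun e => hn (e.trans (isConj_iff.2 ⟨g, rfl⟩).symm)
    refine h t ht ot g (h _ (h z hz oz _ (by rwa [c1.eq, mul_inv_cancel_right])) o _ ?_)
    rw [← c2.eq, mul_inv_cancel_right]
    exact h z hz oz _ (by rwa [c1.eq, mul_inv_cancel_right])

end Cfsg.Agent.SporD
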